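import Cfsg.Agent.Lib.Steiner.Count

/-!
# Automorphism groups of set systems: transfer along bijections, derived systems
-/

set_option autoImplicit false
set_option linter.unusedSectionVars false

namespace Cfsg.Agent.Lib.Steiner

open Cfsg
open scoped Pointwise

section aut

variable {α β : Type*} [DecidableEq α] [DecidableEq β]

omit [DecidableEq β] in
theorem smul_finset_perm (σ : Equiv.Perm α) (s : Finset α) : σ • s = s.image σ := rfl

/-- Members of the automorphism group map blocks to blocks. -/
theorem image_mem_of_aut {B : Set (Finset α)} {σ : Equiv.Perm α} (hσ : σ ∈ setSystemAut B)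
    {b : Finset α} (hb : b ∈ B) : b.image σ ∈ B := by
  have h1 : σ • B = B := MulAction.mem_stabilizer_iff.1 hσ
  have h2 : σ • b ∈ σ • B := Set.smul_mem_smul_set hb
  rw [h1] at h2
  exact h2

/-- On a finite type, mapping blocks to blocks is enough. -/
theorem mem_aut_of_forall [Finite α] {B : Set (Finset α)} {σ : Equiv.Perm α}
    (h : ∀ b ∈ B, b.image σ ∈ B) : σ ∈ setSystemAut B := by
  refine MulAction.mem_stabilizer_iff.2 ?_
  apply Set.eq_of_subset_of_ncard_le _ _ (Set.toFinite _)
  · rintro _ ⟨b, hb, rfl⟩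
    exact h b hb
  · rw [Set.ncard_smul_set]

theorem permCongr_mem_aut [Finite β] (e : α ≃ β) {B : Set (Finset α)} {B' : Set (Finset β)}
    (h : (fun b => b.image e) '' B = B') {σ : Equiv.Perm α} (hσ : σ ∈ setSystemAut B) :
    e.permCongr σ ∈ setSystemAut B' := by
  apply mem_aut_of_forall
  intro b' hb'
  rw [← h] at hb' ⊢
  obtain ⟨b, hb, rfl⟩ := hb'
  refine ⟨b.image σ, image_mem_of_aut hσ hb, ?_⟩
  ext x
  simp [Equiv.permCongr_apply]

theorem image_symm_eq (e : α ≃ β) {B : Set (Finset α)} {B' : Set (Finset β)}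
    (h : (fun b => b.image e) '' B = B') : (fun b => b.image e.symm) '' B' = B := by
  rw [← h, Set.image_image]
  convert Set.image_id B using 2
  ext x
  simp

/-- Conjugation by a bijection carrying one family to the other. -/
def autEquiv [Finite α] [Finite β] (e : α ≃ β) {B : Set (Finset α)} {B' : Set (Finset β)}
    (h : (fun b => b.image e) '' B = B') : setSystemAut B ≃* setSystemAut B' where
  toFun σ := ⟨e.permCongr σ.1, permCongr_mem_aut e h σ.2⟩
  invFun τ := ⟨e.symm.permCongr τ.1, permCongr_mem_aut e.symm (image_symm_eq e h) τ.2⟩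
  left_inv σ := by
    apply Subtype.ext
    ext x
    simp [Equiv.permCongr_apply]
  right_inv τ := by
    apply Subtype.ext
    ext x
    simp [Equiv.permCongr_apply]
  map_mul' σ τ := by
    apply Subtype.ext
    ext x
    simp [Equiv.permCongr_apply]

theorem autEquiv_apply [Finite α] [Finite β] (e : α ≃ β) {B : Set (Finset α)} {B' : Set (Finset β)}
    (h : (fun b => b.image e) '' B = B') (σ : setSystemAut B) (a : α) :
    ((autEquiv e h σ : setSystemAut B') : Equiv.Perm β) (e a) = e ((σ : Equiv.Perm α) a) := by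
  show e.permCongr σ.1 (e a) = _
  simp [Equiv.permCongr_apply]

theorem autEquiv_symm_apply [Finite α] [Finite β] (e : α ≃ β) {B : Set (Finset α)} {B' : Set (Finset β)}
    (h : (fun b => b.image e) '' B = B') (τ : setSystemAut B') (a : α) :
    (((autEquiv e h).symm τ : setSystemAut B) : Equiv.Perm α) a = e.symm ((τ : Equiv.Perm β) (e a)) := by
  show e.symm.permCongr τ.1 a = _
  simp [Equiv.permCongr_apply]

/-- Transfer of multiple transitivity. -/
theorem pretransitive_of_iso [Finite α] [Finite β] (e : α ≃ β) {B : Set (Finset α)} {B' : Set (Finset β)}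
    (h : (fun b => b.image e) '' B = B') {k : ℕ}
    (hT : MulAction.IsMultiplyPretransitive (setSystemAut B') β k) :
    MulAction.IsMultiplyPretransitive (setSystemAut B) α k := by
  refine ⟨fun x y => ?_⟩
  obtain ⟨g, hg⟩ := hT.exists_smul_eq (x.trans e.toEmbedding) (y.trans e.toEmbedding)
  refine ⟨(autEquiv e h).symm g, ?_⟩
  ext i
  have h1 := congrArg (fun z : Fin k ↪ β => z i) hg
  have h2 : (g : Equiv.Perm β) (e (x i)) = e (y i) := h1
  show ((autEquiv e h).symm g : setSystemAut B).1 (x i) = y i
  rw [autEquiv_symm_apply, h2]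
  simp

/-- Transfer of sharpness. -/
theorem stabilizer_bot_of_iso [Finite α] [Finite β] (e : α ≃ β) {B : Set (Finset α)} {B' : Set (Finset β)}
    (h : (fun b => b.image e) '' B = B') {k : ℕ}
    (hS : ∀ x : Fin k ↪ β, MulAction.stabilizer (setSystemAut B') x = ⊥) (x : Fin k ↪ α) :
    MulAction.stabilizer (setSystemAut B) x = ⊥ := by
  rw [eq_bot_iff]
  intro g hg
  rw [Subgroup.mem_bot]
  have hg' : autEquiv e h g ∈ MulAction.stabilizer (setSystemAut B') (x.trans e.toEmbedding) := by
    rw [MulAction.mem_stabilizer_iff]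
    ext i
    have h1 : (g : Equiv.Perm α) (x i) = x i :=
      congrArg (fun z : Fin k ↪ α => z i) (MulAction.mem_stabilizer_iff.1 hg)
    show ((autEquiv e h g : setSystemAut B') : Equiv.Perm β) (e (x i)) = e (x i)
    rw [autEquiv_apply, h1]
  rw [hS, Subgroup.mem_bot] at hg'
  exact (map_eq_one_iff (autEquiv e h) (autEquiv e h).injective).1 hg'

end aut

/-! ### Derived systems -/

section derived

variable {α : Type*} [Fintype α] [DecidableEq α]

/-- The derived system at a set of points. -/
def derivedS (B : Set (Finset α)) (P : Finset α) : Set (Finset {a // a ∉ P}) :=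
  {b' | ∃ b ∈ B, P ⊆ b ∧ b' = Finset.subtype (fun a => a ∉ P) b}

theorem card_subtype_notMem (P b : Finset α) (h : P ⊆ b) :
    (Finset.subtype (fun a => a ∉ P) b).card = b.card - P.card := by
  rw [Finset.card_subtype]
  have : b.filter (fun a => a ∉ P) = b \ P := by
    ext a; simp
  rw [this, Finset.card_sdiff_of_subset h]

theorem card_notMem (P : Finset α) : Fintype.card {a // a ∉ P} = Fintype.card α - P.card := by
  rw [Fintype.card_subtype_compl]
  simp

/-- The derived system of a Steiner system. -/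
theorem isSteiner_derived {t k : ℕ} {B : Set (Finset α)} {P : Finset α}
    (hB : IsSteinerSystem (t + P.card) (k + P.card) B) : IsSteinerSystem t k (derivedS B P) := by
  constructor
  · rintro b' ⟨b, hb, hP, rfl⟩
    rw [card_subtype_notMem P b hP, hB.1 b hb]
    omega
  · intro s hs
    set S : Finset α := P ∪ s.map (Function.Embedding.subtype _) with hS
    have hd : Disjoint P (s.map (Function.Embedding.subtype _)) := by
      rw [Finset.disjoint_left]
      intro a ha h
      rw [Finset.mem_map] at h
      obtain ⟨a', -, rfl⟩ := h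
      exact a'.2 ha
    have hcard : S.card = t + P.card := by
      rw [hS, Finset.card_union_of_disjoint hd, Finset.card_map, hs, add_comm]
    obtain ⟨b, ⟨hb, hSb⟩, hu⟩ := hB.2 S hcard
    have hsub : ∀ c : Finset α, P ⊆ c → (s ⊆ Finset.subtype (fun a => a ∉ P) c ↔ S ⊆ c) := by
      intro c hc
      constructor
      · intro h x hx
        rw [hS, Finset.mem_union, Finset.mem_map] at hx
        rcases hx with hx | ⟨a, ha, rfl⟩
        · exact hc hx
        · have := h ha
          rw [Finset.mem_subtype] at this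
          exact this
      · intro h a ha
        rw [Finset.mem_subtype]
        apply h
        rw [hS, Finset.mem_union, Finset.mem_map]
        exact Or.inr ⟨a, ha, rfl⟩
    have hPb : P ⊆ b := fun a ha => hSb (by rw [hS]; exact Finset.mem_union_left _ ha)
    refine ⟨Finset.subtype (fun a => a ∉ P) b, ⟨⟨b, hb, hPb, rfl⟩, (hsub b hPb).2 hSb⟩, ?_⟩
    rintro c' ⟨⟨c, hc, hPc, rfl⟩, hsc⟩
    rw [hu c ⟨hc, (hsub c hPc).1 hsc⟩]

/-- Image of a block through `P` under the extension by the identity of an automorphism of the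
derived system. -/
theorem image_ofSubtype_mem {B : Set (Finset α)} {P : Finset α}
    {σ : Equiv.Perm {a // a ∉ P}} (hσ : σ ∈ setSystemAut (derivedS B P)) {b : Finset α}
    (hb : b ∈ B) (hP : P ⊆ b) :
    b.image (Equiv.Perm.ofSubtype σ) ∈ B ∧ P ⊆ b.image (Equiv.Perm.ofSubtype σ) := by
  have h1 : (Finset.subtype (fun a => a ∉ P) b).image σ ∈ derivedS B P :=
    image_mem_of_aut hσ ⟨b, hb, hP, rfl⟩
  obtain ⟨b₁, hb₁, hP₁, h2⟩ := h1
  have h3 : b.image (Equiv.Perm.ofSubtype σ) = b₁ := by
    ext a
    by_cases ha : a ∈ P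
    · have hfix : ∀ x, (Equiv.Perm.ofSubtype σ) x = a → x = a := by
        intro x hx
        by_cases hxP : x ∉ P
        · rw [Equiv.Perm.ofSubtype_apply_of_mem σ hxP] at hx
          exact absurd ha (by rw [← hx]; exact (σ ⟨x, hxP⟩).2)
        · rw [Equiv.Perm.ofSubtype_apply_of_not_mem σ hxP] at hx
          exact hx
      rw [Finset.mem_image]
      constructor
      · rintro _
        exact hP₁ ha
      · intro _
        refine ⟨a, hP ha, ?_⟩
        exact Equiv.Perm.ofSubtype_apply_of_not_mem σ (by simpa using ha)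
    · have key := congrArg (fun s => (⟨a, ha⟩ : {a // a ∉ P}) ∈ s) h2
      simp only [Finset.mem_image, Finset.mem_subtype, eq_iff_iff] at key
      rw [Finset.mem_image]
      constructor
      · rintro ⟨x, hx, hxa⟩
        apply key.1
        by_cases hxP : x ∉ P
        · refine ⟨⟨x, hxP⟩, hx, ?_⟩
          rw [Equiv.Perm.ofSubtype_apply_of_mem σ hxP] at hxa
          exact Subtype.ext hxa
        · rw [Equiv.Perm.ofSubtype_apply_of_not_mem σ hxP] at hxa
          rw [hxa] at hxP
          exact absurd (by simpa using hxP) ha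
      · intro hab
        obtain ⟨x, hx, hxa⟩ := key.2 hab
        refine ⟨x.1, hx, ?_⟩
        rw [Equiv.Perm.ofSubtype_apply_of_mem σ x.2]
        exact congrArg Subtype.val hxa
  rw [h3]
  exact ⟨hb₁, hP₁⟩

/-- Restricting an automorphism stabilising `P`. -/
theorem subtypePerm_mem_aut {B : Set (Finset α)} {P : Finset α} {g : Equiv.Perm α}
    (hg : g ∈ setSystemAut B) (hP : ∀ a, g a ∉ P ↔ a ∉ P) :
    g.subtypePerm hP ∈ setSystemAut (derivedS B P) := by
  apply mem_aut_of_forall
  rintro _ ⟨b, hb, hPb, rfl⟩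
  refine ⟨b.image g, image_mem_of_aut hg hb, ?_, ?_⟩
  · intro a ha
    rw [Finset.mem_image]
    refine ⟨g⁻¹ a, hPb ?_, by simp⟩
    by_contra hn
    have := (hP _).2 hn
    simp at this
    exact this ha
  · ext ⟨a, ha⟩
    simp only [Finset.mem_image, Finset.mem_subtype, Equiv.Perm.subtypePerm_apply, Subtype.exists,
      Subtype.mk.injEq]
    constructor
    · rintro ⟨x, hx, hxb, rfl⟩
      exact ⟨x, hxb, rfl⟩
    · rintro ⟨x, hxb, rfl⟩
      exact ⟨x, (hP x).1 ha, hxb, rfl⟩

theorem ofSubtype_mem_iff {P : Finset α} (σ : Equiv.Perm {a // a ∉ P}) (a : α) :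
    Equiv.Perm.ofSubtype σ a ∈ P ↔ a ∈ P := by
  by_cases ha : a ∉ P
  · rw [Equiv.Perm.ofSubtype_apply_of_mem σ ha]
    exact ⟨fun h => absurd h (σ ⟨a, ha⟩).2, fun h => absurd h ha⟩
  · rw [Equiv.Perm.ofSubtype_apply_of_not_mem σ ha]

/-- Stabilising `P` pointwise gives the invariance needed to restrict. -/
theorem notMem_iff_of_fix {P : Finset α} {g : Equiv.Perm α} (hg : ∀ a ∈ P, g a = a) (a : α) :
    g a ∉ P ↔ a ∉ P := by
  constructor
  · intro h ha
    exact h (by rw [hg a ha]; exact ha)
  · intro h h2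
    have := hg _ h2
    have h3 := g.injective this
    exact h (h3 ▸ h2)

/-- The automorphisms of the derived system which extend (by the identity) to members of `G`,
and the pointwise stabiliser of `P` in `G`. -/
def fixEquiv {B : Set (Finset α)} {G : Subgroup (Equiv.Perm α)} (hG : G ≤ setSystemAut B)
    {P : Finset α} {K : Subgroup G} (hK : ∀ g : G, g ∈ K ↔ ∀ a ∈ P, g.1 a = a)
    {H : Subgroup (setSystemAut (derivedS B P))}
    (hH : ∀ σ : setSystemAut (derivedS B P), σ ∈ H ↔ Equiv.Perm.ofSubtype σ.1 ∈ G) : H ≃* K where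
  toFun σ := ⟨⟨Equiv.Perm.ofSubtype σ.1.1, (hH _).1 σ.2⟩, (hK _).2 (fun a ha =>
    Equiv.Perm.ofSubtype_apply_of_not_mem _ (by simpa using ha))⟩
  invFun g := ⟨⟨g.1.1.subtypePerm (notMem_iff_of_fix ((hK _).1 g.2)),
      subtypePerm_mem_aut (hG g.1.2) _⟩, (hH _).2 (by
        rw [Equiv.Perm.ofSubtype_subtypePerm]
        · exact g.1.2
        · intro x hx hxP
          exact hx ((hK _).1 g.2 x hxP))⟩
  left_inv σ := by
    apply Subtype.ext
    apply Subtype.ext
    exact Equiv.Perm.subtypePerm_ofSubtype _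
  right_inv g := by
    apply Subtype.ext
    apply Subtype.ext
    exact Equiv.Perm.ofSubtype_subtypePerm (notMem_iff_of_fix ((hK _).1 g.2))
      (fun x hx hxP => hx ((hK _).1 g.2 x hxP))
  map_mul' σ τ := by
    apply Subtype.ext
    apply Subtype.ext
    show Equiv.Perm.ofSubtype (σ.1.1 * τ.1.1) = _
    rw [map_mul]
    rfl

/-- From transitivity on `j + k` points to transitivity on the derived system. -/
theorem pretransitive_derived {B : Set (Finset α)} {G : Subgroup (Equiv.Perm α)}
    (hG : G ≤ setSystemAut B) {P : Finset α} {j k : ℕ}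
    (hT : MulAction.IsMultiplyPretransitive G α (j + k)) (z : Fin j ↪ α) (hz : ∀ i, z i ∈ P)
    (hzP : ∀ a ∈ P, ∃ i, z i = a) :
    MulAction.IsMultiplyPretransitive (setSystemAut (derivedS B P)) {a // a ∉ P} k := by
  have hinj : ∀ x : Fin k ↪ {a // a ∉ P}, Function.Injective
      (Fin.addCases z (fun i => (x i).1) : Fin (j + k) → α) := by
    intro x a b
    refine Fin.addCases ?_ ?_ a <;> refine Fin.addCases ?_ ?_ b
    · intro b a h
      simp only [Fin.addCases_left] at h
      rw [z.injective h]
    · intro b a h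
      simp only [Fin.addCases_left, Fin.addCases_right] at h
      exact absurd (h ▸ hz a) (x b).2
    · intro b a h
      simp only [Fin.addCases_left, Fin.addCases_right] at h
      exact absurd (h ▸ hz b) (x a).2
    · intro b a h
      simp only [Fin.addCases_right] at h
      rw [x.injective (Subtype.ext h)]
  refine ⟨fun x y => ?_⟩
  obtain ⟨g, hg⟩ := hT.exists_smul_eq ⟨_, hinj x⟩ ⟨_, hinj y⟩
  have h1 : ∀ i, g.1 (z i) = z i := fun i => by
    have := congrArg (fun e : Fin (j + k) ↪ α => e (Fin.castAdd k i)) hg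
    simp at this
    exact this
  have h2 : ∀ i, g.1 (x i).1 = (y i).1 := fun i => by
    have := congrArg (fun e : Fin (j + k) ↪ α => e (Fin.natAdd j i)) hg
    simp at this
    exact this
  have hfix : ∀ a ∈ P, g.1 a = a := by
    intro a ha
    obtain ⟨i, rfl⟩ := hzP a ha
    exact h1 i
  refine ⟨⟨g.1.subtypePerm (notMem_iff_of_fix hfix), subtypePerm_mem_aut (hG g.2) _⟩, ?_⟩
  ext i
  exact h2 i

end derived

end Cfsg.Agent.Lib.Steiner
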